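import Mathlib
import Cfsg.Agent.S2119
import Cfsg.Agent.Lib.Helper38.Pmin3.Defs

/-!
# S2930 team project "Pmin3" (helper38): package [AUT6]

The square of an automorphism of `A_6` maps 3-cycles to 3-cycles: an automorphism either
preserves the class of 3-cycles or exchanges it with the class of type `3 + 3`
(both have 40 elements).
-/

set_option autoImplicit false

namespace Cfsg.Agent.Lib.Helper61.Pmin3

open Equiv Equiv.Perm Cfsg.Agent.Lib.Helper38.Pmin3

/-- the elements of `A_6` of cycle type `m` -/
def ofType (m : Multiset ℕ) : Finset ↥(alternatingGroup (Fin 6)) :=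
  Finset.univ.filter (fun g => (g : Perm (Fin 6)).cycleType = m)

theorem mem_ofType {m : Multiset ℕ} {g : ↥(alternatingGroup (Fin 6))} :
    g ∈ ofType m ↔ (g : Perm (Fin 6)).cycleType = m := by
  simp [ofType]

theorem card_ofType_three : (ofType {3}).card = 40 := by
  unfold ofType
  rw [AlternatingGroup.card_of_cycleType]
  decide

theorem card_ofType_three_three : (ofType {3, 3}).card = 40 := by
  unfold ofType
  rw [AlternatingGroup.card_of_cycleType]
  decide

theorem ofType_of_order_three (x : ↥(alternatingGroup (Fin 6)))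
    (h3 : orderOf (x : Perm (Fin 6)) = 3) : x ∈ ofType {3} ∨ x ∈ ofType {3, 3} := by
  have hct := Cfsg.Agent.S2119.cycleType_of_order_three h3
  obtain ⟨k, hk⟩ : ∃ k, k = Multiset.card (x : Perm (Fin 6)).cycleType := ⟨_, rfl⟩
  rw [← hk] at hct
  have hk1 : 1 ≤ k := by
    by_contra h0
    have hk0 : k = 0 := by omega
    rw [hk0, Multiset.replicate_zero, cycleType_eq_zero] at hct
    rw [hct] at h3
    simp at h3
  have hsum : 3 * k ≤ 6 := by
    have h1 := (x : Perm (Fin 6)).support.card_le_univ
    rw [← sum_cycleType, hct] at h1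
    simpa [mul_comm] using h1
  have hk2 : k = 1 ∨ k = 2 := by omega
  rcases hk2 with rfl | rfl
  · left; rw [mem_ofType, hct]; rfl
  · right; rw [mem_ofType, hct]; rfl

theorem lemAut6 : LemAut6 := by
  intro ψ g hg
  have hord : ∀ x : ↥(alternatingGroup (Fin 6)),
      orderOf ((ψ x : ↥(alternatingGroup (Fin 6))) : Perm (Fin 6)) = orderOf (x : Perm (Fin 6)) := by
    intro x
    rw [Subgroup.orderOf_coe, MulEquiv.orderOf_eq, ← Subgroup.orderOf_coe]
  have hT3 : ∀ x ∈ ofType {3}, orderOf (x : Perm (Fin 6)) = 3 := by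
    intro x hx
    have h1 : IsThreeCycle (x : Perm (Fin 6)) := mem_ofType.1 hx
    exact h1.orderOf
  have hD3 : ∀ x ∈ ofType {3, 3}, orderOf (x : Perm (Fin 6)) = 3 := by
    intro x hx
    rw [← Equiv.Perm.lcm_cycleType, mem_ofType.1 hx]
    rfl
  have hdisj : ∀ x, x ∈ ofType {3} → x ∉ ofType {3, 3} := by
    intro x h1 h2
    rw [mem_ofType] at h1 h2
    rw [h1] at h2
    exact absurd h2 (by decide)
  by_cases hcase : ∃ t₀ ∈ ofType {3}, ψ t₀ ∈ ofType {3}
  · obtain ⟨t₀, ht₀, hψt₀⟩ := hcase
    have hall : ∀ t ∈ ofType {3}, ψ t ∈ ofType {3} := by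
      intro t ht
      have hconj : IsConj t₀ t :=
        alternatingGroup.isThreeCycle_isConj (by simp) (mem_ofType.1 ht₀) (mem_ofType.1 ht)
      obtain ⟨c, hc⟩ := isConj_iff.1 hconj
      rw [mem_ofType] at hψt₀ ⊢
      rw [← hc, map_mul, map_mul, map_inv]
      simp only [Subgroup.coe_mul, Subgroup.coe_inv]
      rw [Equiv.Perm.cycleType_conj]; exact hψt₀
    exact mem_ofType.1 (hall _ (hall g (mem_ofType.2 hg)))
  · push Not at hcase
    have hTD' : ∀ t ∈ ofType {3}, ψ t ∈ ofType {3, 3} := by
      intro t ht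
      rcases ofType_of_order_three (ψ t) (by rw [hord, hT3 t ht]) with h | h
      · exact absurd h (hcase t ht)
      · exact h
    have himg : (ofType {3}).image ψ = ofType {3, 3} := by
      apply Finset.eq_of_subset_of_card_le
      · intro x hx
        obtain ⟨t, ht, rfl⟩ := Finset.mem_image.1 hx
        exact hTD' t ht
      · rw [Finset.card_image_of_injective _ ψ.injective, card_ofType_three,
          card_ofType_three_three]
    have hDT : ∀ d ∈ ofType {3, 3}, ψ d ∈ ofType {3} := by
      intro d hd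
      rcases ofType_of_order_three (ψ d) (by rw [hord, hD3 d hd]) with h | h
      · exact h
      · exfalso
        rw [← himg] at h
        obtain ⟨t, ht, hte⟩ := Finset.mem_image.1 h
        have h1 := ψ.injective hte
        subst h1
        exact hdisj _ ht hd
    exact mem_ofType.1 (hDT _ (hTD' g (mem_ofType.2 hg)))

end Cfsg.Agent.Lib.Helper61.Pmin3
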