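import Mathlib
import Cfsg.Agent.Lib.Helper38.Pmin3.Defs

/-!
# S2930 team project "Pmin3" (helper38): package [TOP]

A transitive 3-subgroup `S` of `A_n` (`n ≥ 2`) has an invariant equivalence relation with
three classes: the orbits of a normal subgroup of index 3 containing a point stabilizer.
-/

set_option autoImplicit false

namespace Cfsg.Agent.Lib.Helper61.Pmin3

open Equiv Cfsg.Agent.Lib.Helper38.Pmin3

theorem lemTop : LemTop := by
  intro n S hn hS htr
  have hp3 : Fact (Nat.Prime 3) := ⟨Nat.prime_three⟩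
  have hpre : MulAction.IsPretransitive ↥S (Fin n) := by
    refine ⟨fun x y => ?_⟩
    obtain ⟨g, hg, hgx⟩ := htr x y
    exact ⟨⟨g, hg⟩, hgx⟩
  obtain ⟨k, hk⟩ := (IsPGroup.iff_card).1 hS
  have x₀ : Fin n := ⟨0, by omega⟩
  have hidx : ∀ x : Fin n, (MulAction.stabilizer ↥S x).index = n := by
    intro x
    rw [MulAction.index_stabilizer_of_transitive]; simp
  have hcard : ∀ x : Fin n, Nat.card (MulAction.stabilizer ↥S x) * n = 3 ^ k := by
    intro x
    have h1 := Subgroup.card_mul_index (MulAction.stabilizer ↥S x)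
    rw [hidx x, hk] at h1
    exact h1
  have hndvd : n ∣ 3 ^ k := ⟨_, (by rw [mul_comm]; exact (hcard x₀).symm)⟩
  obtain ⟨j, hjk, hj⟩ := (Nat.dvd_prime_pow Nat.prime_three).1 hndvd
  have hj1 : 1 ≤ j := by
    rcases Nat.eq_zero_or_pos j with h | h
    · subst h; simp at hj; omega
    · exact h
  have hcard' : ∀ x : Fin n, Nat.card (MulAction.stabilizer ↥S x) = 3 ^ (k - j) := by
    intro x
    have h1 : Nat.card (MulAction.stabilizer ↥S x) * 3 ^ j = 3 ^ k := by
      rw [← hj]; exact hcard x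
    have h2 : 3 ^ k = 3 ^ (k - j) * 3 ^ j := by rw [← pow_add]; congr 1; omega
    rw [h2] at h1
    exact Nat.eq_of_mul_eq_mul_right (by positivity) h1
  obtain ⟨Q, hQcard, hHQ⟩ := Sylow.exists_subgroup_card_pow_prime_le 3 (n := k - j) (m := k - 1)
    (by rw [hk]; exact pow_dvd_pow 3 (by omega)) (MulAction.stabilizer ↥S x₀) (hcard' x₀)
    (by omega)
  have hQidx : Q.index = 3 := by
    have h1 := Subgroup.card_mul_index Q
    rw [hQcard, hk] at h1
    have h2 : 3 ^ k = 3 ^ (k - 1) * 3 := by rw [← pow_succ]; congr 1; omega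
    rw [h2] at h1
    exact Nat.eq_of_mul_eq_mul_left (by positivity) h1
  have hQn : Q.Normal := by
    apply Subgroup.normal_of_index_eq_minFac_card
    rw [hQidx, hk, Nat.Prime.pow_minFac Nat.prime_three (by omega)]
  have hstabQ : ∀ x : Fin n, MulAction.stabilizer ↥S x ≤ Q := by
    intro x
    obtain ⟨g, hg⟩ := MulAction.exists_smul_eq ↥S x₀ x
    intro h hh
    rw [MulAction.mem_stabilizer_iff] at hh
    have h1 : g⁻¹ * h * g ∈ MulAction.stabilizer ↥S x₀ := by
      rw [MulAction.mem_stabilizer_iff, mul_smul, mul_smul, hg, hh, ← hg, inv_smul_smul]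
    have h2 := hQn.conj_mem _ (hHQ h1) g
    simpa [mul_assoc] using h2
  refine ⟨fun x y => ∃ q ∈ Q, q • x = y, ⟨?_, ?_, ?_⟩, ?_, ?_⟩
  · intro x; exact ⟨1, Q.one_mem, one_smul _ _⟩
  · rintro x y ⟨q, hq, rfl⟩; exact ⟨q⁻¹, Q.inv_mem hq, inv_smul_smul _ _⟩
  · rintro x y z ⟨q, hq, rfl⟩ ⟨q', hq', rfl⟩; exact ⟨q' * q, Q.mul_mem hq' hq, mul_smul _ _ _⟩
  · intro g hg x y
    have hgsm : ∀ w : Fin n, (g : Perm (Fin n)) w = (⟨g, hg⟩ : ↥S) • w := fun w => rfl
    rw [hgsm x, hgsm y]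
    constructor
    · rintro ⟨q, hq, hqx⟩
      refine ⟨(⟨g, hg⟩ : ↥S)⁻¹ * q * ⟨g, hg⟩, ?_, ?_⟩
      · have h1 := hQn.conj_mem q hq (⟨g, hg⟩ : ↥S)⁻¹
        simpa using h1
      · rw [mul_smul, mul_smul, hqx, inv_smul_smul]
    · rintro ⟨q, hq, rfl⟩
      refine ⟨(⟨g, hg⟩ : ↥S) * q * (⟨g, hg⟩ : ↥S)⁻¹, hQn.conj_mem q hq _, ?_⟩
      rw [mul_smul, mul_smul, inv_smul_smul]
  · intro x
    have hC : {y : Fin n | ∃ q ∈ Q, q • x = y} = MulAction.orbit ↥Q x := by
      ext y
      constructor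
      · rintro ⟨q, hq, rfl⟩
        exact ⟨⟨q, hq⟩, rfl⟩
      · rintro ⟨q, rfl⟩
        exact ⟨q.1, q.2, rfl⟩
    have e : MulAction.stabilizer ↥Q x ≃ MulAction.stabilizer ↥S x :=
      { toFun := fun q => ⟨(q.1 : ↥S), by
          have h1 := q.2
          rw [MulAction.mem_stabilizer_iff] at h1 ⊢
          exact h1⟩
        invFun := fun s => ⟨⟨s.1, hstabQ x s.2⟩, by
          have h1 := s.2
          rw [MulAction.mem_stabilizer_iff] at h1 ⊢
          exact h1⟩
        left_inv := fun q => rfl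
        right_inv := fun s => rfl }
    have h1 := Subgroup.card_mul_index (MulAction.stabilizer ↥Q x)
    rw [MulAction.index_stabilizer, Nat.card_congr e, hcard' x, hQcard, ← hC] at h1
    have h2 : 3 ^ (k - 1) = 3 ^ (k - j) * 3 ^ (j - 1) := by rw [← pow_add]; congr 1; omega
    rw [h2] at h1
    have h3 := Nat.eq_of_mul_eq_mul_left (by positivity) h1
    show 3 * Set.ncard {y : Fin n | ∃ q ∈ Q, q • x = y} = n
    have h4 : 3 * 3 ^ (j - 1) = 3 ^ j := by rw [← pow_succ']; congr 1; omega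
    rw [h3, h4]; exact hj.symm

end Cfsg.Agent.Lib.Helper61.Pmin3
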